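import Cfsg.Agent.Char.Degree
import Cfsg.Agent.Char.ClassMult
import Cfsg.Agent.Char.Kernel
import Cfsg.Agent.Char.Eigen
import Cfsg.Agent.Block.PrincBasic

/-!
# A character inequality for an abelian subgroup whose conjugates project onto it
-/

set_option autoImplicit false
set_option linter.unusedSectionVars false

open Cfsg Cfsg.Lib.Char Subgroup
open scoped ComplexConjugate

namespace Cfsg.Lib.PairSyl

theorem arith {ι : Type*} (X : Finset ι) (x m : ι → ℝ) (q : ℝ) (k : ℤ) (hq : 3 ≤ q)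
    (hx : ∀ i ∈ X, 0 < x i) (hm : ∀ i ∈ X, 0 < m i) (hE : ∀ i ∈ X, (q - 1) * m i ≤ x i)
    (h1 : ∑ i ∈ X, (q * m i - x i) * m i = (q - 1) * (k - 1))
    (h2 : ∑ i ∈ X, m i / x i * (q * m i - x i) ^ 2 = (q - 1) ^ 2 * (k - 1))
    (h3 : ∑ i ∈ X, x i * (q * m i - x i) = -(q - 1)) : False := by
  have hq1 : 0 < q - 1 := by linarith
  have hnn : ∀ i ∈ X, 0 ≤ m i / x i * (q * m i - x i) ^ 2 := fun i hi =>
    mul_nonneg (div_pos (hm i hi) (hx i hi)).le (sq_nonneg _)
  have hk1 : (1 : ℝ) ≤ k := by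
    have := Finset.sum_nonneg hnn
    rw [h2] at this
    have := nonneg_of_mul_nonneg_right this (pow_pos hq1 2)
    linarith
  have hk2 : (2 : ℝ) ≤ k := by
    have hk : (1 : ℤ) ≤ k := by exact_mod_cast hk1
    rcases hk.lt_or_eq with h | h
    · exact_mod_cast h
    · exfalso
      rw [← h] at h2
      have h0 : ∑ i ∈ X, m i / x i * (q * m i - x i) ^ 2 = 0 := by rw [h2]; simp
      rw [Finset.sum_eq_zero_iff_of_nonneg hnn] at h0
      have : ∑ i ∈ X, x i * (q * m i - x i) = 0 := by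
        refine Finset.sum_eq_zero fun i hi => ?_
        rcases mul_eq_zero.1 (h0 i hi) with h | h
        · exact absurd h (div_pos (hm i hi) (hx i hi)).ne'
        · rw [pow_eq_zero_iff two_ne_zero] at h
          rw [h, mul_zero]
      linarith
  have hsq : ∑ i ∈ X, (q * m i - x i) ^ 2 = q * ((q - 1) * (k - 1)) + (q - 1) := by
    rw [← h1, ← neg_neg (q - 1), ← h3, Finset.mul_sum, ← sub_eq_add_neg, ← Finset.sum_sub_distrib]
    exact Finset.sum_congr rfl fun i _ => by ring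
  have hnn2 : ∀ i ∈ X, 0 ≤ (1 - (q - 1) * (m i / x i)) * (q * m i - x i) ^ 2 := fun i hi => by
    refine mul_nonneg ?_ (sq_nonneg _)
    rw [sub_nonneg, ← mul_div_assoc, div_le_one (hx i hi)]
    exact hE i hi
  have hs : ∑ i ∈ X, (1 - (q - 1) * (m i / x i)) * (q * m i - x i) ^ 2 =
      (q - 1) * (1 - (k - 1) * (q ^ 2 - 3 * q + 1)) := by
    have : ∑ i ∈ X, (1 - (q - 1) * (m i / x i)) * (q * m i - x i) ^ 2 =
        ∑ i ∈ X, (q * m i - x i) ^ 2 - (q - 1) * ∑ i ∈ X, m i / x i * (q * m i - x i) ^ 2 := by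
      rw [Finset.mul_sum, ← Finset.sum_sub_distrib]
      exact Finset.sum_congr rfl fun i _ => by ring
    rw [this, hsq, h2]; ring
  have hle : (q - 1) * (1 - (k - 1) * (q ^ 2 - 3 * q + 1)) ≤ 0 := by
    refine mul_nonpos_of_nonneg_of_nonpos hq1.le ?_
    have : 1 ≤ q ^ 2 - 3 * q + 1 := by nlinarith
    nlinarith
  have h0 : ∑ i ∈ X, (1 - (q - 1) * (m i / x i)) * (q * m i - x i) ^ 2 = 0 :=
    le_antisymm (hs ▸ hle) (Finset.sum_nonneg hnn2)
  rw [Finset.sum_eq_zero_iff_of_nonneg hnn2] at h0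
  have h4 : ∑ i ∈ X, (x i * (q * m i - x i) - (q - 1) * ((q * m i - x i) * m i)) = 0 := by
    refine Finset.sum_eq_zero fun i hi => ?_
    have hxi := (hx i hi).ne'
    rcases mul_eq_zero.1 (h0 i hi) with h | h
    · have : x i = (q - 1) * m i := by
        field_simp at h
        linarith
      rw [this]; ring
    · rw [pow_eq_zero_iff two_ne_zero] at h
      rw [h]; ring
  rw [Finset.sum_sub_distrib, ← Finset.mul_sum, h1, h3] at h4
  nlinarith [mul_pos hq1 hq1]

variable {G : Type*} [Group G] [Fintype G] {χ : G → ℂ}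

theorem conv (hχ : IsIrrCharacter G χ) (a b : G) :
    ∑ k, conj (χ (k * a)) * χ (k * b) = (Nat.card G : ℂ) / χ 1 * χ (a⁻¹ * b) := by
  rw [← irr_sum_inv_mul hχ]
  refine Fintype.sum_equiv (Equiv.mulRight a) _ _ fun k => ?_
  rw [Equiv.coe_mulRight, hχ.isCharacter.apply_inv, mul_assoc, mul_inv_cancel_left]

theorem pos_def (hχ : IsIrrCharacter G χ) {ι : Type*} [Fintype ι] (g : ι → G) (w : G) :
    (∑ i, ∑ j, χ ((g i)⁻¹ * (g j * w))).re ≤ (∑ i, ∑ j, χ ((g i)⁻¹ * g j)).re := by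
  obtain ⟨n, hn, hn1⟩ := hχ.exists_nat_degree_pos
  set F : G → ℂ := fun k => ∑ i, χ (k * g i) with hF
  have gen : ∀ w : G, ∑ k, conj (F k) * F (w * k) =
      (((Nat.card G : ℝ) / n : ℝ) : ℂ) * ∑ i, ∑ j, χ ((g i)⁻¹ * (g j * w)) := by
    intro w
    have e1 : ∀ k, conj (F k) * F (w * k) = ∑ i, ∑ j, conj (χ (k * g i)) * χ (k * (g j * w)) := by
      intro k
      rw [hF]
      simp only [map_sum]
      rw [Finset.sum_mul_sum]
      refine Finset.sum_congr rfl fun i _ => Finset.sum_congr rfl fun j _ => ?_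
      rw [mul_assoc w, hχ.isClassFunction.apply_mul_comm w, mul_assoc k]
    simp only [e1]
    rw [Finset.sum_comm, Finset.mul_sum]
    refine Finset.sum_congr rfl fun i _ => ?_
    rw [Finset.sum_comm, Finset.mul_sum]
    refine Finset.sum_congr rfl fun j _ => ?_
    rw [conv hχ, hn1]
    push_cast
    ring
  have hc : 0 < (Nat.card G : ℝ) / n :=
    div_pos (by exact_mod_cast Nat.card_pos) (by exact_mod_cast hn)
  have g1 := congrArg Complex.re (gen 1)
  have gw := congrArg Complex.re (gen w)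
  simp only [one_mul, mul_one] at g1
  rw [Complex.re_ofReal_mul] at g1 gw
  refine le_of_mul_le_mul_left ?_ hc
  rw [← g1, ← gw, Complex.re_sum, Complex.re_sum]
  have e2 : ∑ k, (conj (F (w * k)) * F (w * k)).re = ∑ k, (conj (F k) * F k).re :=
    Fintype.sum_equiv (Equiv.mulLeft w) _ _ fun k => rfl
  have e3 : ∀ a b : ℂ, 2 * (conj a * b).re ≤ (conj a * a).re + (conj b * b).re := by
    intro a b
    simp only [Complex.mul_re, Complex.conj_re, Complex.conj_im]
    nlinarith [sq_nonneg (a.re - b.re), sq_nonneg (a.im - b.im)]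
  have e4 := Finset.sum_le_sum fun k (_ : k ∈ Finset.univ) => e3 (F k) (F (w * k))
  rw [← Finset.mul_sum, Finset.sum_add_distrib, e2] at e4
  linarith

variable {A : Subgroup G} [Fintype A] {π : G → A →* A}

/-- The values of `χ` on products of elements of `A` and of a conjugate of `A`. -/
def Val (π : G → A →* A) (χ : G → ℂ) : Prop :=
  ∀ (g : G) (u a : A), a * π g u ≠ 1 → χ (a * (g * u * g⁻¹)) = χ ((a * π g u : A) : G)

/-- The difference of a conjugate of an element of `A` and its projection. -/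
def dif (π : G → A →* A) (g : G) (u : A) : G := (π g u : G)⁻¹ * (g * u * g⁻¹)

theorem Val.apply (h : Val π χ) (g : G) (u : A) {b : A} (hb : b ≠ 1) :
    χ (b * dif π g u) = χ b := by
  have := h g u (b * (π g u)⁻¹) (by rwa [inv_mul_cancel_right])
  rw [inv_mul_cancel_right, coe_mul, coe_inv, mul_assoc] at this
  exact this

theorem Val.sum_a (h : Val π χ) (g : G) (u : A) :
    ∑ a : A, χ (a * (g * u * g⁻¹)) = ∑ a : A, χ a - χ 1 + χ (dif π g u) := by
  classical
  have e1 : ∑ a : A, χ (a * (g * u * g⁻¹)) = ∑ b : A, χ (b * dif π g u) := by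
    refine Fintype.sum_equiv (Equiv.mulRight (π g u)) _ _ fun a => ?_
    rw [Equiv.coe_mulRight, coe_mul, dif, mul_assoc (a : G), mul_inv_cancel_left]
  rw [e1, ← Finset.add_sum_erase _ _ (Finset.mem_univ (1 : A)),
    ← Finset.add_sum_erase _ (fun a : A => χ a) (Finset.mem_univ (1 : A)),
    Finset.sum_congr rfl fun b hb => h.apply g u (Finset.ne_of_mem_erase hb)]
  simp only [coe_one, one_mul]
  ring

theorem Val.rel (h : Val π χ) (hχ : IsIrrCharacter G χ) (u : A) :
    ∑ g : G, χ (dif π g u) =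
      (Nat.card G : ℂ) * (χ 1 - ∑ a : A, χ a + (∑ a : A, χ a) * χ u / χ 1) := by
  have e1 : ∑ g : G, ∑ a : A, χ (a * (g * u * g⁻¹)) =
      (Nat.card G : ℂ) * ((∑ a : A, χ a) * χ u / χ 1) := by
    rw [Finset.sum_comm, Finset.sum_mul, Finset.sum_div, Finset.mul_sum]
    refine Finset.sum_congr rfl fun a _ => ?_
    rw [irr_sum_mul_conj hχ]; ring
  simp only [h.sum_a] at e1
  rw [Finset.sum_add_distrib, Finset.sum_const, Finset.card_univ, ← Nat.card_eq_fintype_card,
    nsmul_eq_mul] at e1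
  linear_combination e1

theorem Val.ineq (h : Val π χ) (hχ : IsIrrCharacter G χ) (hA : ∀ a b : A, a * b = b * a) (g : G)
    {w : A} (hw : w ≠ 1) : (Nat.card A : ℝ) * (χ w).re ≤ (∑ u : A, χ (dif π g u)).re := by
  have hp := pos_def hχ (fun u : A => g * u * g⁻¹ * (π g u : G)⁻¹) w
  have key : ∀ (u₁ u₂ b : A), χ ((g * u₁ * g⁻¹ * (π g u₁ : G)⁻¹)⁻¹ *
      (g * u₂ * g⁻¹ * (π g u₂ : G)⁻¹ * b)) = χ (b * dif π g (u₁⁻¹ * u₂)) := by
    intro u₁ u₂ b
    have e1 : ((π g u₂)⁻¹ * b * π g u₁ : A) = b * (π g (u₁⁻¹ * u₂))⁻¹ := by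
      rw [map_mul, map_inv, mul_inv_rev, inv_inv, hA _ b, mul_assoc]
    have e2 : ((π g u₂ : G)⁻¹ * b * π g u₁) = b * (π g (u₁⁻¹ * u₂) : G)⁻¹ :=
      congrArg Subtype.val e1
    rw [dif, ← mul_assoc (b : G), ← e2, ← hχ.isClassFunction.apply_conj' _
      ((π g u₁ : G) * (g * ((u₁⁻¹ * u₂ : A) : G) * g⁻¹))]
    congr 1
    rw [coe_mul, coe_inv]
    group
  have e1 : ∑ u₁ : A, ∑ u₂ : A, χ ((g * u₁ * g⁻¹ * (π g u₁ : G)⁻¹)⁻¹ *
      (g * u₂ * g⁻¹ * (π g u₂ : G)⁻¹ * w)) = (Nat.card A : ℂ) * ((Nat.card A : ℂ) * χ w) := by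
    simp only [key, h.apply g _ hw, Finset.sum_const, Finset.card_univ, nsmul_eq_mul,
      Nat.card_eq_fintype_card]
  have e2 : ∑ u₁ : A, ∑ u₂ : A, χ ((g * u₁ * g⁻¹ * (π g u₁ : G)⁻¹)⁻¹ *
      (g * u₂ * g⁻¹ * (π g u₂ : G)⁻¹)) = (Nat.card A : ℂ) * ∑ u : A, χ (dif π g u) := by
    have : ∀ u₁ : A, ∑ u₂ : A, χ ((g * u₁ * g⁻¹ * (π g u₁ : G)⁻¹)⁻¹ *
        (g * u₂ * g⁻¹ * (π g u₂ : G)⁻¹)) = ∑ u : A, χ (dif π g u) := by
      intro u₁
      refine Fintype.sum_equiv (Equiv.mulLeft u₁⁻¹) _ _ fun u₂ => ?_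
      have := key u₁ u₂ 1
      simp only [coe_one, mul_one, one_mul] at this
      rw [this, Equiv.coe_mulLeft]
    simp only [this, Finset.sum_const, Finset.card_univ, nsmul_eq_mul, Nat.card_eq_fintype_card]
  rw [e1, e2, ← Complex.ofReal_natCast, Complex.re_ofReal_mul, Complex.re_ofReal_mul,
    Complex.re_ofReal_mul] at hp
  exact le_of_mul_le_mul_left hp (by exact_mod_cast Nat.card_pos)

theorem exists_mult (hχ : IsCharacter G χ) (A : Subgroup G) [Fintype A] :
    ∃ m : ℕ, ∑ a : A, χ a = (Nat.card A : ℂ) * m := by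
  obtain ⟨m, hm⟩ := (hχ.res A).exists_nat_classInner isCharacter_one
  rw [classInner_one_right] at hm
  refine ⟨m, ?_⟩
  rw [← hm, ← mul_assoc, mul_inv_cancel₀ (card_ne_zero A), one_mul]

theorem Val.bounds [IsSimpleGroup G] (h : Val π χ) (hχ : IsIrrCharacter G χ)
    (h1 : χ ≠ fun _ => 1) (hA : ∀ a b : A, a * b = b * a) (hq : 2 ≤ Nat.card A)
    (hnn : ¬ A.Normal) {x m : ℕ} (hx : χ 1 = x) (hm : ∑ a : A, χ a = (Nat.card A : ℂ) * m) :
    0 < m ∧ ((Nat.card A : ℝ) - 1) * m ≤ x := by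
  classical
  have hG : (0 : ℝ) < Nat.card G := by exact_mod_cast Nat.card_pos
  have hx0 : (0 : ℝ) < x := by
    have : x ≠ 0 := fun h0 => hχ.apply_one_ne_zero (by rw [hx, h0, Nat.cast_zero])
    exact_mod_cast Nat.pos_of_ne_zero this
  have hxre : (χ 1).re = x := by rw [hx, Complex.natCast_re]
  constructor
  · refine Nat.pos_of_ne_zero fun hm0 => hnn ⟨fun u hu g => ?_⟩
    have e := h.rel hχ ⟨u, hu⟩
    rw [hm, hm0] at e
    have e1 : ∑ g : G, ((χ 1).re - (χ (dif π g ⟨u, hu⟩)).re) = 0 := by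
      rw [Finset.sum_sub_distrib, ← Complex.re_sum _ (fun g => χ (dif π g ⟨u, hu⟩)), e,
        Finset.sum_const, Finset.card_univ, ← Nat.card_eq_fintype_card]
      simp
    rw [Finset.sum_eq_zero_iff_of_nonneg
      fun g _ => sub_nonneg.2 (hχ.isCharacter.re_le_re _)] at e1
    have e2 := hχ.eq_one_of_apply_eq_of_isSimpleGroup h1
      (hχ.isCharacter.eq_of_re_eq (sub_eq_zero.1 (e1 g (Finset.mem_univ g))).symm)
    rw [dif, inv_mul_eq_one] at e2
    rw [← e2]
    exact (π g _).2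
  · set q : ℝ := (Nat.card A : ℝ) with hqdef
    have hq' : (2 : ℝ) ≤ q := by rw [hqdef]; exact_mod_cast hq
    have hsum : ∑ a : A, (χ a).re = q * m := by
      rw [← Complex.re_sum, hm]; simp [hqdef]
    have hcard : ((Finset.univ.erase (1 : A)).card : ℝ) = q - 1 := by
      rw [Finset.card_erase_of_mem (Finset.mem_univ _), Finset.card_univ,
        ← Nat.card_eq_fintype_card, Nat.cast_sub (by omega), Nat.cast_one]
    have hT : ∑ a ∈ Finset.univ.erase (1 : A), (χ a).re = q * m - x := by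
      rw [← hsum, ← Finset.add_sum_erase _ (fun a : A => (χ a).re) (Finset.mem_univ (1 : A))]
      simp only [coe_one, hxre]
      ring
    have hlt : (m : ℝ) < x := by
      have : ∑ a ∈ Finset.univ.erase (1 : A), (χ a).re <
          ∑ a ∈ Finset.univ.erase (1 : A), (x : ℝ) := by
        refine Finset.sum_lt_sum_of_nonempty ?_ fun a ha => ?_
        · rw [← Finset.card_pos]
          have : (0 : ℝ) < (Finset.univ.erase (1 : A)).card := by rw [hcard]; linarith
          exact_mod_cast this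
        · rw [← hxre]
          refine hχ.isCharacter.re_lt_re_of_ne fun h2 => Finset.ne_of_mem_erase ha ?_
          exact Subtype.ext (hχ.eq_one_of_apply_eq_of_isSimpleGroup h1 h2)
      rw [hT, Finset.sum_const, nsmul_eq_mul, hcard] at this
      nlinarith
    have hS : ∑ g : G, (∑ u : A, χ (dif π g u)).re =
        (Nat.card G : ℝ) * (q * x - q * (q * m) + q * m * (q * m) / x) := by
      rw [← Complex.re_sum, Finset.sum_comm]
      simp only [h.rel hχ]
      rw [← Finset.mul_sum, Finset.sum_add_distrib, Finset.sum_const, ← Finset.sum_div,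
        ← Finset.mul_sum, hm, hx, Finset.card_univ, ← Nat.card_eq_fintype_card, nsmul_eq_mul]
      have : (Nat.card G : ℂ) * ((Nat.card A : ℂ) * ((x : ℂ) - (Nat.card A : ℂ) * m) +
          (Nat.card A : ℂ) * m * ((Nat.card A : ℂ) * m) / x) =
          (((Nat.card G : ℝ) * (q * x - q * (q * m) + q * m * (q * m) / x) : ℝ) : ℂ) := by
        rw [hqdef]; push_cast; ring
      rw [this, Complex.ofReal_re]
    have hw : ∀ w ∈ Finset.univ.erase (1 : A),
        q * (χ w).re ≤ q * x - q * (q * m) + q * m * (q * m) / x := by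
      intro w hw
      have := Finset.sum_le_sum fun g (_ : g ∈ Finset.univ) =>
        h.ineq hχ hA g (Finset.ne_of_mem_erase hw)
      rw [hS, Finset.sum_const, Finset.card_univ, ← Nat.card_eq_fintype_card,
        nsmul_eq_mul] at this
      exact le_of_mul_le_mul_left this hG
    have h5 := Finset.sum_le_sum hw
    rw [← Finset.mul_sum, hT, Finset.sum_const, nsmul_eq_mul, hcard] at h5
    have h6 : 0 ≤ q * q * ((x - m) * (x - (q - 1) * m)) / x := by
      have : q * q * ((x - m) * (x - (q - 1) * m)) / x =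
          (q - 1) * (q * x - q * (q * m) + q * m * (q * m) / x) - q * (q * m - x) := by
        field_simp
        ring
      rw [this]; linarith
    have h7 : 0 ≤ (x - m : ℝ) * (x - (q - 1) * m) := by
      have h8 := mul_nonneg h6 hx0.le
      rw [div_mul_cancel₀ _ hx0.ne'] at h8
      exact nonneg_of_mul_nonneg_right h8 (by positivity)
    have := nonneg_of_mul_nonneg_right h7 (sub_pos.2 hlt)
    linarith

end Cfsg.Lib.PairSyl
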