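import Cfsg.Agent.GlSz.Pair
import Cfsg.Agent.Char.ElemParts
import Cfsg.Agent.Solv.PSolvable

/-!
# Groups in which any two Sylow `p`-subgroups generate a `p`-soluble group: local structure
-/

set_option autoImplicit false
set_option linter.unusedSectionVars false

open Cfsg Subgroup

namespace Cfsg.Lib.PairSyl

variable {G : Type*} [Group G] [Finite G] {p : ℕ} [hp : Fact p.Prime]

theorem eq_one_of_orders {x : G} (h1 : ∃ k, orderOf x = p ^ k) (h2 : ¬ p ∣ orderOf x) : x = 1 := by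
  obtain ⟨k, hk⟩ := h1
  rcases k with _ | k
  · exact orderOf_eq_one_iff.1 (by simpa using hk)
  · exact absurd (hk ▸ dvd_pow_self p (Nat.succ_ne_zero k)) h2

theorem not_dvd_orderOf {N : Subgroup G} (hN : (Nat.card N).Coprime p) {x : G} (hx : x ∈ N) :
    ¬ p ∣ orderOf x := fun h =>
  (Nat.Prime.coprime_iff_not_dvd hp.out).1 hN.symm (h.trans (Subgroup.orderOf_dvd_natCard N hx))

theorem pow_of_mem {P : Subgroup G} (hP : IsPGroup p P) {x : G} (hx : x ∈ P) :
    ∃ k, orderOf x = p ^ k := by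
  obtain ⟨k, hk⟩ := IsPGroup.iff_orderOf.1 hP ⟨x, hx⟩
  exact ⟨k, by rw [← hk, Subgroup.orderOf_mk]⟩

theorem eq_one_of_mem {P N : Subgroup G} (hP : IsPGroup p P) (hN : (Nat.card N).Coprime p) {x : G}
    (h1 : x ∈ P) (h2 : x ∈ N) : x = 1 :=
  eq_one_of_orders (pow_of_mem hP h1) (not_dvd_orderOf hN h2)

/-- In a `p`-soluble group a `p'`-subgroup normalized by a Sylow `p`-subgroup lies in `O_{p'}`. -/
theorem le_core (hs : IsPSolvable p G) (S : Sylow p G) {X : Subgroup G}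
    (hX : (Nat.card X).Coprime p) (hn : ∀ s ∈ (S : Subgroup G), ∀ x ∈ X, s * x * s⁻¹ ∈ X) :
    X ≤ pPrimeCore p G := by
  set K := pPrimeCore p G
  set f := QuotientGroup.mk' K with hf
  have h1 : pCore p (G ⧸ K) ≤ (S : Subgroup G).map f :=
    Solv.pCore_le_sylow (S.mapSurjective (QuotientGroup.mk'_surjective _))
  have hQ := Solv.pCore_isPGroup p (G ⧸ K)
  have hXm : (Nat.card (X.map f)).Coprime p :=
    Nat.Coprime.coprime_dvd_left (Subgroup.card_map_dvd X f) hX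
  intro x hx
  have h2 : f x ∈ pCore p (G ⧸ K) := by
    refine (hs.quotient _).centralizer_pCore_le (Solv.pPrimeCore_quotient_pPrimeCore p G)
      (mem_centralizer_iff.2 fun u hu => ?_)
    obtain ⟨s, hs', rfl⟩ := h1 hu
    have a1 : f s * f x * (f s)⁻¹ * (f x)⁻¹ ∈ X.map f :=
      ⟨s * x * s⁻¹ * x⁻¹, X.mul_mem (hn s hs' x hx) (X.inv_mem hx), by simp⟩
    have a2 : f s * f x * (f s)⁻¹ * (f x)⁻¹ ∈ pCore p (G ⧸ K) := by
      have : f x * (f s)⁻¹ * (f x)⁻¹ ∈ pCore p (G ⧸ K) :=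
        (inferInstance : (pCore p (G ⧸ K)).Normal).conj_mem _ (inv_mem hu) _
      have := mul_mem hu this
      simpa only [mul_assoc] using this
    have a3 := eq_one_of_mem hQ hXm a2 a1
    rw [mul_inv_eq_one, mul_inv_eq_iff_eq_mul] at a3
    exact a3
  have h3 : f x = 1 := eq_one_of_mem hQ hXm h2 ⟨x, hx, rfl⟩
  exact (QuotientGroup.eq_one_iff x).1 h3

/-- In a `p`-soluble group the centre of a Sylow `p`-subgroup lies in `O_{p', p}`. -/
theorem exists_of_central (hs : IsPSolvable p G) (S T : Sylow p G) {d : G}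
    (hd : ∀ t ∈ (T : Subgroup G), t * d = d * t) :
    ∃ a ∈ (S : Subgroup G), a⁻¹ * d ∈ pPrimeCore p G := by
  set K := pPrimeCore p G
  set f := QuotientGroup.mk' K with hf
  have h1 : ∀ S : Sylow p G, pCore p (G ⧸ K) ≤ (S : Subgroup G).map f := fun S =>
    Solv.pCore_le_sylow (S.mapSurjective (QuotientGroup.mk'_surjective _))
  have h2 : f d ∈ pCore p (G ⧸ K) := by
    refine (hs.quotient _).centralizer_pCore_le (Solv.pPrimeCore_quotient_pPrimeCore p G)
      (mem_centralizer_iff.2 fun u hu => ?_)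
    obtain ⟨s, hs', rfl⟩ := h1 T hu
    rw [← map_mul, ← map_mul, hd s hs']
  obtain ⟨a, ha, hfa⟩ := h1 S h2
  exact ⟨a, ha, QuotientGroup.eq.1 hfa⟩

/-- The `p'`-core of a subgroup, as a subgroup of the whole group. -/
def core (p : ℕ) (K : Subgroup G) : Subgroup G := (pPrimeCore p K).map K.subtype

theorem core_le (K : Subgroup G) : core p K ≤ K := map_subtype_le _

theorem core_coprime (K : Subgroup G) : (Nat.card (core p K)).Coprime p :=
  Solv.coprime_card_map_pPrimeCore p K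

theorem core_conj {K : Subgroup G} {g x : G} (hg : g ∈ K) (hx : x ∈ core p K) :
    g * x * g⁻¹ ∈ core p K := by
  obtain ⟨y, hy, rfl⟩ := hx
  exact ⟨⟨g, hg⟩ * y * ⟨g, hg⟩⁻¹, (inferInstance : (pPrimeCore p K).Normal).conj_mem _ hy _, rfl⟩

theorem le_core_of_normal {K X : Subgroup G} (hXK : X ≤ K) (hX : (Nat.card X).Coprime p)
    (hn : ∀ g ∈ K, ∀ x ∈ X, g * x * g⁻¹ ∈ X) : X ≤ core p K := by
  refine Solv.le_map_pPrimeCore hXK (fun g hg => ?_) hX
  rw [mem_normalizer_iff]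
  intro x
  refine ⟨hn g hg x, fun h => ?_⟩
  have := hn g⁻¹ (K.inv_mem hg) _ h
  simpa only [inv_inv, ← mul_assoc, inv_mul_cancel, one_mul, inv_mul_cancel_right] using this

theorem le_core' {K : Subgroup G} (hs : IsPSolvable p K) (T : Sylow p K) {X : Subgroup G}
    (hXK : X ≤ K) (hX : (Nat.card X).Coprime p)
    (hn : ∀ s ∈ (T : Subgroup K), ∀ x ∈ X, (s : G) * x * (s : G)⁻¹ ∈ X) : X ≤ core p K := by
  have h1 : (Nat.card (X.subgroupOf K)).Coprime p := by
    rw [Nat.card_congr (subgroupOfEquivOfLe hXK).toEquiv]; exact hX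
  have h2 := le_core hs T h1 (fun s hs x hx => mem_subgroupOf.2 (hn s hs x hx))
  intro x hx
  exact ⟨⟨x, hXK hx⟩, h2 (mem_subgroupOf.2 hx), rfl⟩

theorem exists_of_central' {K : Subgroup G} (hs : IsPSolvable p K) (S T : Sylow p G)
    (hS : (S : Subgroup G) ≤ K) (hT : (T : Subgroup G) ≤ K) {d : G} (hdK : d ∈ K)
    (hd : ∀ t ∈ (T : Subgroup G), t * d = d * t) :
    ∃ a ∈ (S : Subgroup G), a⁻¹ * d ∈ core p K := by
  obtain ⟨a, ha, h⟩ := exists_of_central hs (S.subtype hS) (T.subtype hT) (d := ⟨d, hdK⟩)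
    (fun t ht => Subtype.ext (hd t ht))
  exact ⟨a, ha, _, h, rfl⟩

/-- An element of a coset `w N` of a normal `p'`-subgroup with `w` a `p`-element is conjugate to
`w v` with `v ∈ N` centralizing `w`. -/
theorem conj_coset_normal (N : Subgroup G) [hN : N.Normal] (hc : (Nat.card N).Coprime p) {w n : G}
    (hw : ∃ k, orderOf w = p ^ k) (hn : n ∈ N) :
    ∃ v ∈ N, w * v = v * w ∧ IsConj (w * n) (w * v) := by
  set f := QuotientGroup.mk' N with hf
  obtain ⟨u, hu, v, hv, huv, hcomm, hup, hvp⟩ :=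
    Char.Parts.exists_pPart_mul_pPrimePart hp.out (isOfFinOrder_of_finite (w * n))
  have hfn : f n = 1 := (QuotientGroup.eq_one_iff n).2 hn
  have hvN : v ∈ N := by
    refine (QuotientGroup.eq_one_iff v).1 (eq_one_of_orders (p := p) (x := f v) ?_ ?_)
    · obtain ⟨k, hk⟩ := hw
      obtain ⟨j, rfl⟩ := mem_zpowers_iff.1 hv
      have : (f ((w * n) ^ j)) ^ p ^ k = 1 := by
        rw [map_zpow, map_mul, hfn, mul_one, ← zpow_natCast, ← zpow_mul, mul_comm, zpow_mul,
          zpow_natCast, ← map_pow, ← hk, pow_orderOf_eq_one, map_one, one_zpow]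
      obtain ⟨i, -, hi⟩ := (Nat.dvd_prime_pow hp.out).1 (orderOf_dvd_of_pow_eq_one this)
      exact ⟨i, hi⟩
    · exact fun h => hvp (h.trans (orderOf_map_dvd f v))
  have hfu : f u = f w := by
    have h1 : f v = 1 := (QuotientGroup.eq_one_iff v).2 hvN
    have h2 := congrArg f huv
    rwa [map_mul, map_mul, h1, hfn, mul_one, mul_one] at h2
  have hzp : IsPGroup p (zpowers w) := by
    obtain ⟨k, hk⟩ := hw
    exact IsPGroup.of_card (by rw [Nat.card_zpowers, hk])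
  obtain ⟨S, hS⟩ := hzp.exists_le_sylow
  have hwS : w ∈ (S : Subgroup G) := hS (mem_zpowers w)
  obtain ⟨t, ht, hut, hft⟩ := GlSz.exists_conj_mk_eq S N hup ⟨w, hwS, hfu.symm⟩
  have htw : t = w := by
    have h1 : w⁻¹ * t ∈ N := QuotientGroup.eq.1 (hfu.symm.trans hft.symm)
    have h2 := eq_one_of_mem S.isPGroup' hc ((S : Subgroup G).mul_mem (inv_mem hwS) ht) h1
    exact (inv_mul_eq_one.1 h2).symm
  subst htw
  obtain ⟨m, hm⟩ := isConj_iff.1 hut
  refine ⟨m * v * m⁻¹, hN.conj_mem _ hvN _, ?_, isConj_iff.2 ⟨m, ?_⟩⟩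
  · rw [← hm]
    calc m * u * m⁻¹ * (m * v * m⁻¹) = m * (u * v) * m⁻¹ := by group
      _ = m * (v * u) * m⁻¹ := by rw [hcomm.eq]
      _ = _ := by group
  · rw [← huv, ← hm]; group

theorem mem_normalizer_of {N : Subgroup G} {w : G} (h : ∀ x ∈ N, w * x * w⁻¹ ∈ N) :
    w ∈ normalizer (N : Set G) :=
  mem_normalizer_fintype (S := (N : Set G)) h

theorem conj_coset {N : Subgroup G} (hc : (Nat.card N).Coprime p) {w n : G}
    (hw : ∃ k, orderOf w = p ^ k) (hwN : ∀ x ∈ N, w * x * w⁻¹ ∈ N) (hn : n ∈ N) :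
    ∃ v ∈ N, w * v = v * w ∧ IsConj (w * n) (w * v) := by
  set L := normalizer (N : Set G)
  have hc' : (Nat.card (N.subgroupOf L)).Coprime p := by
    rw [Nat.card_congr (subgroupOfEquivOfLe le_normalizer).toEquiv]; exact hc
  obtain ⟨v, hv, h1, h2⟩ := conj_coset_normal (N.subgroupOf L) hc'
    (w := ⟨w, mem_normalizer_of hwN⟩) (n := ⟨n, le_normalizer hn⟩)
    (by simpa only [Subgroup.orderOf_mk] using hw) (mem_subgroupOf.2 hn)
  exact ⟨v, hv, congrArg Subtype.val h1, (L.subtype.map_isConj h2 :)⟩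

/-- Two `p`-elements congruent modulo a normalized `p'`-subgroup are conjugate. -/
theorem isConj_of_coset {N : Subgroup G} (hc : (Nat.card N).Coprime p) {a d : G}
    (ha : ∃ k, orderOf a = p ^ k) (hd : ∃ k, orderOf d = p ^ k)
    (haN : ∀ x ∈ N, a * x * a⁻¹ ∈ N) (hn : a⁻¹ * d ∈ N) : IsConj d a := by
  obtain ⟨v, hv, h1, h2⟩ := conj_coset hc ha haN hn
  rw [mul_inv_cancel_left] at h2
  have hv1 : v = 1 := by
    refine eq_one_of_orders (p := p) ?_ (not_dvd_orderOf hc hv)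
    obtain ⟨k, hk⟩ := ha
    obtain ⟨l, hl⟩ := hd
    have e1 : (a * v) ^ p ^ l = 1 := by
      obtain ⟨m, hm⟩ := isConj_iff.1 h2
      rw [← hm, conj_pow, ← hl, pow_orderOf_eq_one, mul_one, mul_inv_cancel]
    have e2 : a ^ p ^ k = 1 := by rw [← hk, pow_orderOf_eq_one]
    have e3 : v ^ p ^ (k + l) = 1 := by
      have hcm : Commute a v := h1
      have e4 : (a * v) ^ p ^ (k + l) = 1 := by rw [pow_add, mul_comm, pow_mul, e1, one_pow]
      rwa [hcm.mul_pow, pow_add p, pow_mul a, e2, one_pow, one_mul, ← pow_add] at e4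
    obtain ⟨i, -, hi⟩ := (Nat.dvd_prime_pow hp.out).1 (orderOf_dvd_of_pow_eq_one e3)
    exact ⟨i, hi⟩
  rwa [hv1, mul_one] at h2

end Cfsg.Lib.PairSyl
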