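import Cfsg.Agent.PairSyl.Grp

/-!
# The weak closure of a `p`-central element when pairs of Sylow subgroups are `p`-soluble
-/

set_option autoImplicit false
set_option linter.unusedSectionVars false

open Cfsg Subgroup
open scoped Pointwise

namespace Cfsg.Lib.PairSyl

/-- Any two Sylow `p`-subgroups generate a `p`-soluble subgroup. -/
def Hyp (p : ℕ) (G : Type*) [Group G] : Prop :=
  ∀ P Q : Sylow p G, IsPSolvable p ↥((P : Subgroup G) ⊔ (Q : Subgroup G))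

variable {G : Type*} [Group G] [Finite G] {p : ℕ} [hp : Fact p.Prime]

theorem mem_smul_iff (P : Sylow p G) (g x : G) :
    x ∈ ((g • P : Sylow p G) : Subgroup G) ↔ g⁻¹ * x * g ∈ (P : Subgroup G) := by
  rw [Sylow.coe_subgroup_smul, mem_pointwise_smul_iff_inv_smul_mem]
  simp

section

variable {P₀ : Sylow p G} {z : G}

theorem exists_central (hz : ∀ t ∈ (P₀ : Subgroup G), t * z = z * t) {d : G} (hd : IsConj z d) :
    ∃ R : Sylow p G, ∀ t ∈ (R : Subgroup G), t * d = d * t := by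
  obtain ⟨g, rfl⟩ := isConj_iff.1 hd
  refine ⟨g • P₀, fun t ht => ?_⟩
  have := hz _ ((mem_smul_iff P₀ g t).1 ht)
  calc t * (g * z * g⁻¹) = g * (g⁻¹ * t * g * z) * g⁻¹ := by group
    _ = g * (z * (g⁻¹ * t * g)) * g⁻¹ := by rw [this]
    _ = _ := by group

theorem mem_of_central (R : Sylow p G) {d : G} (hdp : ∃ k, orderOf d = p ^ k)
    (hd : ∀ t ∈ (R : Subgroup G), t * d = d * t) : d ∈ (R : Subgroup G) := by
  have hzp : IsPGroup p (zpowers d) := by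
    obtain ⟨k, hk⟩ := hdp
    exact IsPGroup.of_card (by rw [Nat.card_zpowers, hk])
  have hn : zpowers d ≤ normalizer ((R : Subgroup G) : Set G) := by
    rw [zpowers_le]
    exact mem_normalizer_of fun x hx => by rw [← hd x hx, mul_inv_cancel_right]; exact hx
  have h1 : IsPGroup p ↥((R : Subgroup G) ⊔ zpowers d) := by
    rw [sup_comm]; exact hzp.to_sup_of_normal_right' R.isPGroup' hn
  have h2 := R.is_maximal' h1 le_sup_left
  rw [← h2]
  exact mem_sup_right (mem_zpowers d)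

theorem pow_of_isConj (hz0 : z ∈ (P₀ : Subgroup G)) {d : G} (hd : IsConj z d) :
    ∃ k, orderOf d = p ^ k := by
  obtain ⟨g, rfl⟩ := isConj_iff.1 hd
  obtain ⟨k, hk⟩ := pow_of_mem P₀.isPGroup' hz0
  exact ⟨k, by rw [← hk]; exact (MulAut.conj g).orderOf_eq z⟩

theorem key (H : Hyp p G) (hz0 : z ∈ (P₀ : Subgroup G))
    (hz : ∀ t ∈ (P₀ : Subgroup G), t * z = z * t) (P Q : Sylow p G) {d : G}
    (hdQ : d ∈ (Q : Subgroup G)) (hd : IsConj z d) :
    ∃ a ∈ (P : Subgroup G), a⁻¹ * d ∈ core p ((P : Subgroup G) ⊔ (Q : Subgroup G)) := by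
  obtain ⟨R, hR⟩ := exists_central hz hd
  have hdR := mem_of_central R (pow_of_isConj hz0 hd) hR
  obtain ⟨a, ha, h⟩ := exists_of_central' (H P R) P R le_sup_left le_sup_right
    (mem_sup_right hdR) hR
  refine ⟨a, ha, ?_⟩
  have hle : core p ((P : Subgroup G) ⊔ (R : Subgroup G)) ⊓ ((P : Subgroup G) ⊔ (Q : Subgroup G))
      ≤ core p ((P : Subgroup G) ⊔ (Q : Subgroup G)) := by
    refine le_core' (H P Q) (P.subtype le_sup_left) inf_le_right
      (Nat.Coprime.coprime_dvd_left (card_dvd_of_le inf_le_left) (core_coprime _)) ?_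
    intro s hs x hx
    exact mem_inf.2 ⟨core_conj (mem_sup_left hs) (mem_inf.1 hx).1,
      mul_mem (mul_mem s.2 (mem_inf.1 hx).2) (inv_mem s.2)⟩
  exact hle (mem_inf.2 ⟨h, mul_mem (inv_mem (mem_sup_left ha)) (mem_sup_right hdQ)⟩)

theorem comm_of (H : Hyp p G) (hz0 : z ∈ (P₀ : Subgroup G))
    (hz : ∀ t ∈ (P₀ : Subgroup G), t * z = z * t) (Q : Sylow p G) {d e : G}
    (hdQ : d ∈ (Q : Subgroup G)) (hd : IsConj z d) (heQ : e ∈ (Q : Subgroup G)) (he : IsConj z e) :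
    d * e = e * d := by
  obtain ⟨R, hR⟩ := exists_central hz hd
  have hdR := mem_of_central R (pow_of_isConj hz0 hd) hR
  obtain ⟨a, ha, h⟩ := key H hz0 hz R Q heQ he
  have h1 : d * e * d⁻¹ * e⁻¹ = a * ((d * (a⁻¹ * e) * d⁻¹) * (a⁻¹ * e)⁻¹) * a⁻¹ := by
    have := hR a ha
    calc d * e * d⁻¹ * e⁻¹ = (d * a) * (a⁻¹ * e) * d⁻¹ * e⁻¹ := by group
      _ = (a * d) * (a⁻¹ * e) * d⁻¹ * e⁻¹ := by rw [this]
      _ = _ := by group
  have h2 : d * e * d⁻¹ * e⁻¹ ∈ core p ((R : Subgroup G) ⊔ (Q : Subgroup G)) := by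
    rw [h1]
    exact core_conj (mem_sup_left ha) (mul_mem (core_conj (mem_sup_left hdR) h) (inv_mem h))
  have h3 := eq_one_of_mem Q.isPGroup' (core_coprime _)
    (mul_mem (mul_mem (mul_mem hdQ heQ) (inv_mem hdQ)) (inv_mem heQ)) h2
  rw [mul_inv_eq_one, mul_inv_eq_iff_eq_mul] at h3
  exact h3

end

/-- The weak closure of `z` in `P`. -/
def wc (z : G) (P : Sylow p G) : Subgroup G :=
  closure {d | IsConj z d ∧ d ∈ (P : Subgroup G)}

theorem wc_le (z : G) (P : Sylow p G) : wc z P ≤ (P : Subgroup G) :=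
  (closure_le _).2 fun _ h => h.2

theorem mem_wc {z : G} {P : Sylow p G} {d : G} (h1 : IsConj z d) (h2 : d ∈ (P : Subgroup G)) :
    d ∈ wc z P := subset_closure ⟨h1, h2⟩

theorem mem_wc_of_le {z : G} {P Q : Sylow p G} (hle : wc z P ≤ (Q : Subgroup G)) {d : G}
    (h1 : IsConj z d) (h2 : d ∈ (Q : Subgroup G)) : d ∈ wc z P := by
  obtain ⟨g, rfl⟩ := MulAction.exists_smul_eq G P Q
  have hsub : {d | IsConj z d ∧ d ∈ (P : Subgroup G)} ⊆
      {d | IsConj z d ∧ d ∈ ((g • P : Sylow p G) : Subgroup G)} :=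
    fun x hx => ⟨hx.1, hle (mem_wc hx.1 hx.2)⟩
  have hcard : {d | IsConj z d ∧ d ∈ ((g • P : Sylow p G) : Subgroup G)}.ncard ≤
      {d | IsConj z d ∧ d ∈ (P : Subgroup G)}.ncard := by
    refine Set.ncard_le_ncard_of_injOn (fun x => g⁻¹ * x * g) (fun x hx => ⟨?_, ?_⟩)
      (fun x _ y _ h => by simpa using h)
    · exact hx.1.trans (isConj_iff.2 ⟨g⁻¹, by rw [inv_inv]⟩)
    · exact (mem_smul_iff P g x).1 hx.2
  have heq := Set.eq_of_subset_of_ncard_le hsub hcard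
  have : d ∈ {d | IsConj z d ∧ d ∈ (P : Subgroup G)} := by rw [heq]; exact ⟨h1, h2⟩
  exact mem_wc this.1 this.2

section

variable {P₀ : Sylow p G} {z : G}

theorem wc_comm (H : Hyp p G) (hz0 : z ∈ (P₀ : Subgroup G))
    (hz : ∀ t ∈ (P₀ : Subgroup G), t * z = z * t) {a b : G} (ha : a ∈ wc z P₀)
    (hb : b ∈ wc z P₀) : a * b = b * a := by
  induction ha, hb using closure_induction₂ with
  | mem x y hx hy => exact comm_of H hz0 hz P₀ hx.2 hx.1 hy.2 hy.1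
  | one_left x _ => simp
  | one_right x _ => simp
  | mul_left x y w _ _ _ h1 h2 => exact (Commute.mul_left h1 h2 :)
  | mul_right y w x _ _ _ h1 h2 => exact (Commute.mul_right h1 h2 :)
  | inv_left x y _ _ h => exact (Commute.inv_left h :)
  | inv_right x y _ _ h => exact (Commute.inv_right h :)

theorem conj_mem_smul (P : Sylow p G) (g : G) {u : G} (hu : u ∈ (P : Subgroup G)) :
    g * u * g⁻¹ ∈ ((g • P : Sylow p G) : Subgroup G) :=
  (mem_smul_iff P g _).2 (by simpa only [← mul_assoc, inv_mul_cancel, one_mul,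
    inv_mul_cancel_right] using hu)

theorem exists_proj (H : Hyp p G) (hz0 : z ∈ (P₀ : Subgroup G))
    (hz : ∀ t ∈ (P₀ : Subgroup G), t * z = z * t) (g : G) {P : Sylow p G}
    (hP : wc z P₀ ≤ (P : Subgroup G)) {u : G} (hu : u ∈ wc z P₀) :
    ∃ a ∈ wc z P₀, a⁻¹ * (g * u * g⁻¹) ∈
      core p ((P : Subgroup G) ⊔ ((g • P₀ : Sylow p G) : Subgroup G)) := by
  induction hu using closure_induction with
  | mem d hd =>
    have h1 : IsConj z (g * d * g⁻¹) := hd.1.trans (isConj_iff.2 ⟨g, rfl⟩)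
    obtain ⟨a, ha, h⟩ := key H hz0 hz P (g • P₀) (conj_mem_smul P₀ g hd.2) h1
    have h2 := isConj_of_coset (core_coprime _) (pow_of_mem P.isPGroup' ha) (pow_of_isConj hz0 h1)
      (fun x hx => core_conj (mem_sup_left ha) hx) h
    exact ⟨a, mem_wc_of_le hP (h1.trans h2) ha, h⟩
  | one => exact ⟨1, one_mem _, by simp⟩
  | mul x y _ _ hx hy =>
    obtain ⟨a, ha, h1⟩ := hx
    obtain ⟨b, hb, h2⟩ := hy
    refine ⟨a * b, mul_mem ha hb, ?_⟩
    have : (a * b)⁻¹ * (g * (x * y) * g⁻¹) =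
        b⁻¹ * (a⁻¹ * (g * x * g⁻¹)) * b⁻¹⁻¹ * (b⁻¹ * (g * y * g⁻¹)) := by group
    rw [this]
    exact mul_mem (core_conj (mem_sup_left (inv_mem (hP hb))) h1) h2
  | inv x _ hx =>
    obtain ⟨a, ha, h1⟩ := hx
    refine ⟨a⁻¹, inv_mem ha, ?_⟩
    have : a⁻¹⁻¹ * (g * x⁻¹ * g⁻¹) = a * (a⁻¹ * (g * x * g⁻¹))⁻¹ * a⁻¹ := by group
    rw [this]
    exact core_conj (mem_sup_left (hP ha)) (inv_mem h1)

/-- The subgroup generated by the weak closure and one of its conjugates. -/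
def pr (z : G) (P₀ : Sylow p G) (g : G) : Subgroup G :=
  wc z P₀ ⊔ (wc z P₀).map (MulAut.conj g).toMonoidHom

theorem conj_mem_pr (g : G) {u : G} (hu : u ∈ wc z P₀) : g * u * g⁻¹ ∈ pr z P₀ g :=
  mem_sup_right ⟨u, hu, rfl⟩

theorem mem_core_pr (g : G) {P : Sylow p G} (hP : wc z P₀ ≤ (P : Subgroup G)) {a u : G}
    (ha : a ∈ wc z P₀) (hu : u ∈ wc z P₀)
    (h : a⁻¹ * (g * u * g⁻¹) ∈ core p ((P : Subgroup G) ⊔ ((g • P₀ : Sylow p G) : Subgroup G))) :
    a⁻¹ * (g * u * g⁻¹) ∈ core p (pr z P₀ g) := by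
  have hL : pr z P₀ g ≤ (P : Subgroup G) ⊔ ((g • P₀ : Sylow p G) : Subgroup G) := by
    refine sup_le (hP.trans le_sup_left) ?_
    rintro _ ⟨x, hx, rfl⟩
    exact mem_sup_right (conj_mem_smul P₀ g (wc_le z P₀ hx))
  have hle : core p ((P : Subgroup G) ⊔ ((g • P₀ : Sylow p G) : Subgroup G)) ⊓ pr z P₀ g ≤
      core p (pr z P₀ g) := by
    refine le_core_of_normal inf_le_right
      (Nat.Coprime.coprime_dvd_left (card_dvd_of_le inf_le_left) (core_coprime _)) ?_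
    intro s hs x hx
    exact mem_inf.2 ⟨core_conj (hL hs) (mem_inf.1 hx).1,
      mul_mem (mul_mem hs (mem_inf.1 hx).2) (inv_mem hs)⟩
  exact hle (mem_inf.2 ⟨h, mul_mem (inv_mem (mem_sup_left ha)) (conj_mem_pr g hu)⟩)

theorem proj_unique {L : Subgroup G} {a b x : G} (ha : a ∈ wc z P₀) (hb : b ∈ wc z P₀)
    (h1 : a⁻¹ * x ∈ core p L) (h2 : b⁻¹ * x ∈ core p L) : a = b := by
  have h3 : a⁻¹ * b ∈ core p L := by
    have := mul_mem h1 (inv_mem h2)
    simpa only [mul_inv_rev, inv_inv, mul_assoc, mul_inv_cancel_left] using this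
  exact inv_mul_eq_one.1 (eq_one_of_mem P₀.isPGroup' (core_coprime L)
    (wc_le z P₀ (mul_mem (inv_mem ha) hb)) h3)

theorem exists_pi (H : Hyp p G) (hz0 : z ∈ (P₀ : Subgroup G))
    (hz : ∀ t ∈ (P₀ : Subgroup G), t * z = z * t)
    (hC : ∀ w : G, w ≠ 1 → IsPSolvable p (centralizer ({w} : Set G))) (g : G) :
    ∃ π : wc z P₀ →* wc z P₀,
      (∀ u : wc z P₀, ¬ p ∣ orderOf ((π u : G)⁻¹ * (g * u * g⁻¹))) ∧
      ∀ u a : wc z P₀, a * π u ≠ 1 → ∃ v ∈ centralizerPPrimeCore p ((a * π u : wc z P₀) : G),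
        IsConj ((a : G) * (g * u * g⁻¹)) (((a * π u : wc z P₀) : G) * v) := by
  have ex : ∀ u : wc z P₀, ∃ a : wc z P₀, (a : G)⁻¹ * (g * u * g⁻¹) ∈ core p (pr z P₀ g) := by
    intro u
    obtain ⟨a, ha, h⟩ := exists_proj H hz0 hz g (wc_le z P₀) u.2
    exact ⟨⟨a, ha⟩, mem_core_pr g (wc_le z P₀) ha u.2 h⟩
  choose f hf using ex
  have hmul : ∀ x y, f (x * y) = f x * f y := by
    intro x y
    refine Subtype.ext (proj_unique (f _).2 (f x * f y).2 (hf _) ?_)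
    have : ((f x * f y : wc z P₀) : G)⁻¹ * (g * (x * y : wc z P₀) * g⁻¹) =
        (f y : G)⁻¹ * ((f x : G)⁻¹ * (g * x * g⁻¹)) * (f y : G)⁻¹⁻¹ *
          ((f y : G)⁻¹ * (g * y * g⁻¹)) := by
      rw [coe_mul, coe_mul]; group
    rw [this]
    exact mul_mem (core_conj (mem_sup_left (inv_mem (f y).2)) (hf x)) (hf y)
  refine ⟨MonoidHom.mk' f hmul, fun u => not_dvd_orderOf (core_coprime _) (hf u), ?_⟩
  intro u a hw
  simp only [MonoidHom.mk'_apply] at hw ⊢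
  set w : G := ((a * f u : wc z P₀) : G) with hwdef
  have hwA : w ∈ wc z P₀ := (a * f u).2
  have hw1 : w ≠ 1 := fun h => hw (Subtype.ext h)
  set C := centralizer ({w} : Set G)
  have hAC : wc z P₀ ≤ C := fun x hx =>
    mem_centralizer_singleton_iff.2 (wc_comm H hz0 hz hx hwA)
  have hAp : IsPGroup p (wc z P₀) := P₀.isPGroup'.to_le (wc_le z P₀)
  obtain ⟨T, hT⟩ := (hAp.comap_subtype (K := C)).exists_le_sylow
  obtain ⟨P, hP⟩ := (T.isPGroup'.map C.subtype).exists_le_sylow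
  have hAP : wc z P₀ ≤ (P : Subgroup G) := fun x hx => hP ⟨⟨x, hAC hx⟩, hT hx, rfl⟩
  obtain ⟨b, hb, hN⟩ := exists_proj H hz0 hz g hAP u.2
  have hbf : b = f u := proj_unique hb (f u).2 (mem_core_pr g hAP hb u.2 hN) (hf u)
  subst hbf
  set N := core p ((P : Subgroup G) ⊔ ((g • P₀ : Sylow p G) : Subgroup G))
  obtain ⟨v, hv, hwv, hcj⟩ := conj_coset (core_coprime _) (pow_of_mem hAp hwA)
    (fun x hx => core_conj (mem_sup_left (hAP hwA)) hx) hN
  have hle : N ⊓ C ≤ core p C := by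
    refine le_core' (hC w hw1) T inf_le_right
      (Nat.Coprime.coprime_dvd_left (card_dvd_of_le inf_le_left) (core_coprime _)) ?_
    intro s hs x hx
    exact mem_inf.2 ⟨core_conj (mem_sup_left (hP ⟨s, hs, rfl⟩)) (mem_inf.1 hx).1,
      mul_mem (mul_mem s.2 (mem_inf.1 hx).2) (inv_mem s.2)⟩
  refine ⟨v, hle ⟨hv, mem_centralizer_singleton_iff.2 hwv.symm⟩, ?_⟩
  have : (a : G) * (g * u * g⁻¹) = w * ((f u : G)⁻¹ * (g * u * g⁻¹)) := by
    rw [hwdef, coe_mul]; group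
  rw [this]
  exact hcj

end

end Cfsg.Lib.PairSyl
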