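import Cfsg.Agent.PairSyl.Char
import Cfsg.Agent.PairSyl.Struct
import Cfsg.Agent.Block.BlockOrth
import Cfsg.Agent.Block.Part
import Cfsg.Agent.S0942
import Cfsg.Agent.S0215

/-!
# A group whose pairs of Sylow `p`-subgroups generate `p`-soluble groups is `p`-soluble
-/

set_option autoImplicit false
set_option linter.unusedSectionVars false
set_option linter.style.haveILetI false

open Cfsg Cfsg.Lib.Char Cfsg.Lib.Block Cfsg.Lib.Block.Princ Subgroup
open scoped ComplexConjugate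

namespace Cfsg.Lib.PairSyl

universe u

theorem exists_int_of_integral {κ : ℂ} (h : IsIntegral ℤ κ) {n : ℕ} (hn : n ≠ 0) {J : ℤ}
    (hJ : (n : ℂ) * κ = J) : ∃ k : ℤ, κ = k := by
  have hn' : (n : ℂ) ≠ 0 := by exact_mod_cast hn
  have e : κ = algebraMap ℚ ℂ ((J : ℚ) / n) := by
    rw [eq_ratCast]; push_cast; rw [← hJ, mul_div_cancel_left₀ _ hn']
  rw [e, isIntegral_algebraMap_iff (algebraMap ℚ ℂ).injective] at h
  obtain ⟨k, hk⟩ := IsIntegrallyClosed.isIntegral_iff.1 h
  exact ⟨k, by rw [e, ← hk]; simp⟩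

theorem char_main {G : Type*} [Group G] [Fintype G] [IsSimpleGroup G] {A : Subgroup G} [Fintype A]
    {π : G → A →* A} (B : Finset (IrrCharacter G)) (h1 : triv G ∈ B)
    (hA : ∀ a b : A, a * b = b * a) (hq : 3 ≤ Nat.card A) (hnn : ¬ A.Normal)
    (hval : ∀ χ ∈ B, Val π (χ : G → ℂ))
    (horth : ∀ (g : G) (u w : A), w ≠ 1 →
      ∑ χ ∈ B, (χ : G → ℂ) (dif π g u) * conj ((χ : G → ℂ) w) = 0) : False := by
  classical
  choose x hx0 hx using fun χ : IrrCharacter G => χ.2.exists_nat_degree_pos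
  choose m hm using fun χ : IrrCharacter G => exists_mult χ.2.isCharacter A
  set q : ℕ := Nat.card A with hqdef
  have hqC : (q : ℂ) ≠ 0 := by exact_mod_cast (by omega : q ≠ 0)
  have hxC : ∀ χ, (x χ : ℂ) ≠ 0 := fun χ => by exact_mod_cast (hx0 χ).ne'
  have h0 : ∀ w : A, w ≠ 1 → ∑ χ ∈ B, (x χ : ℂ) * conj ((χ : G → ℂ) w) = 0 := by
    intro w hw
    have := horth 1 1 w hw
    simpa only [dif, map_one, coe_one, inv_one, mul_one, hx] using this
  have rel : ∀ u w : A, w ≠ 1 → ∑ χ ∈ B, (m χ : ℂ) * conj ((χ : G → ℂ) w) =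
      ∑ χ ∈ B, (m χ : ℂ) / x χ * ((χ : G → ℂ) u * conj ((χ : G → ℂ) w)) := by
    intro u w hw
    have e1 : ∑ g : G, ∑ χ ∈ B, (χ : G → ℂ) (dif π g u) * conj ((χ : G → ℂ) w) = 0 :=
      Finset.sum_eq_zero fun g _ => horth g u w hw
    rw [Finset.sum_comm] at e1
    have e2 : ∀ χ ∈ B, ∑ g : G, (χ : G → ℂ) (dif π g u) * conj ((χ : G → ℂ) w) =
        (Nat.card G : ℂ) * ((x χ : ℂ) * conj ((χ : G → ℂ) w) -
          q * ((m χ : ℂ) * conj ((χ : G → ℂ) w)) +
          q * ((m χ : ℂ) / x χ * ((χ : G → ℂ) u * conj ((χ : G → ℂ) w)))) := by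
      intro χ hχ
      rw [← Finset.sum_mul, (hval χ hχ).rel χ.2, hm, hx]
      ring
    rw [Finset.sum_congr rfl e2, ← Finset.mul_sum, Finset.sum_add_distrib, Finset.sum_sub_distrib,
      ← Finset.mul_sum, ← Finset.mul_sum, h0 w hw] at e1
    have e3 := (mul_eq_zero.1 e1).resolve_left (card_ne_zero G)
    apply mul_left_cancel₀ hqC
    linear_combination -e3
  have sym : ∀ u w : A, u ≠ 1 → w ≠ 1 → conj (∑ χ ∈ B, (m χ : ℂ) * conj ((χ : G → ℂ) u)) =
      ∑ χ ∈ B, (m χ : ℂ) * conj ((χ : G → ℂ) w) := by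
    intro u w hu hw
    rw [rel w u hu, rel u w hw, map_sum]
    refine Finset.sum_congr rfl fun χ _ => ?_
    simp only [map_mul, map_div₀, Complex.conj_natCast, Complex.conj_conj]
    ring
  haveI : Nontrivial A := Finite.one_lt_card_iff_nontrivial.1 (by omega)
  obtain ⟨z, hz⟩ := exists_ne (1 : A)
  set κ : ℂ := ∑ χ ∈ B, (m χ : ℂ) * conj ((χ : G → ℂ) z) with hκ
  have hκw : ∀ w : A, w ≠ 1 → ∑ χ ∈ B, (m χ : ℂ) * conj ((χ : G → ℂ) w) = κ := fun w hw => by
    rw [← sym z w hz hw, sym z z hz hz]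
  set E := Finset.univ.erase (1 : A) with hE
  have hcard : (E.card : ℂ) = q - 1 := by
    rw [hE, Finset.card_erase_of_mem (Finset.mem_univ _), Finset.card_univ,
      ← Nat.card_eq_fintype_card, Nat.cast_sub (by omega), Nat.cast_one]
  have hT : ∀ χ : IrrCharacter G, ∑ w ∈ E, (χ : G → ℂ) w = q * m χ - x χ := by
    intro χ
    rw [← hm χ, ← hx χ, ← Finset.add_sum_erase _ (fun a : A => (χ : G → ℂ) a)
      (Finset.mem_univ (1 : A))]
    simp only [coe_one]
    ring
  have hT' : ∀ χ : IrrCharacter G, ∑ w ∈ E, conj ((χ : G → ℂ) w) = q * m χ - x χ := by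
    intro χ
    rw [← map_sum, hT]
    simp
  have s1 : ∑ χ ∈ B, ((q : ℂ) * m χ - x χ) * m χ = (q - 1) * κ := by
    simp only [← hT', Finset.sum_mul]
    rw [Finset.sum_comm, Finset.sum_congr rfl fun w hw => (Finset.sum_congr rfl
      fun χ _ => mul_comm _ _).trans (hκw w (Finset.ne_of_mem_erase hw)), Finset.sum_const,
      nsmul_eq_mul, hcard]
  have s2 : ∑ χ ∈ B, (m χ : ℂ) / x χ * ((q : ℂ) * m χ - x χ) ^ 2 = (q - 1) ^ 2 * κ := by
    have e1 : ∀ χ ∈ B, (m χ : ℂ) / x χ * ((q : ℂ) * m χ - x χ) ^ 2 =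
        ∑ u ∈ E, ∑ w ∈ E, (m χ : ℂ) / x χ * ((χ : G → ℂ) u * conj ((χ : G → ℂ) w)) := by
      intro χ _
      rw [sq]
      nth_rewrite 1 [← hT χ]
      rw [← hT' χ, Finset.sum_mul_sum, Finset.mul_sum]
      exact Finset.sum_congr rfl fun u _ => Finset.mul_sum _ _ _
    rw [Finset.sum_congr rfl e1, Finset.sum_comm]
    have e2 : ∀ u ∈ E, ∑ χ ∈ B, ∑ w ∈ E,
        (m χ : ℂ) / x χ * ((χ : G → ℂ) u * conj ((χ : G → ℂ) w)) = (q - 1) * κ := by
      intro u _
      rw [Finset.sum_comm, Finset.sum_congr rfl fun w hw =>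
        (rel u w (Finset.ne_of_mem_erase hw)).symm.trans (hκw w (Finset.ne_of_mem_erase hw)),
        Finset.sum_const, nsmul_eq_mul, hcard]
    rw [Finset.sum_congr rfl e2, Finset.sum_const, nsmul_eq_mul, hcard]
    ring
  have s3 : ∑ χ ∈ B, (x χ : ℂ) * ((q : ℂ) * m χ - x χ) = 0 := by
    simp only [← hT', Finset.mul_sum]
    rw [Finset.sum_comm]
    exact Finset.sum_eq_zero fun w hw => h0 w (Finset.ne_of_mem_erase hw)
  have hint : IsIntegral ℤ κ := IsIntegral.sum _ fun χ _ =>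
    (isIntegral_algebraMap (x := (m χ : ℤ)).mul
      (IsCharacter_isIntegral χ.2.isCharacter.conj z) :)
  obtain ⟨k, hk⟩ := exists_int_of_integral hint (n := q - 1) (by omega)
    (J := ∑ χ ∈ B, ((q : ℤ) * m χ - x χ) * m χ) (by
      rw [Nat.cast_sub (by omega), Nat.cast_one, ← s1]; push_cast; rfl)
  have hx1 : (x (triv G) : ℂ) = 1 := by rw [← hx]; rfl
  have hm1 : (m (triv G) : ℂ) = 1 := by
    have := hm (triv G)
    simp only [triv_apply, Finset.sum_const, Finset.card_univ, nsmul_eq_mul, mul_one,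
      ← Nat.card_eq_fintype_card] at this
    apply mul_left_cancel₀ hqC
    rw [mul_one]
    exact this.symm
  rw [← Finset.add_sum_erase _ _ h1, hx1, hm1, hk] at s1 s2
  rw [← Finset.add_sum_erase _ _ h1, hx1, hm1] at s3
  have hb : ∀ χ ∈ B.erase (triv G), 0 < m χ ∧ ((q : ℝ) - 1) * m χ ≤ x χ := fun χ hχ =>
    (hval χ (Finset.mem_of_mem_erase hχ)).bounds χ.2
      (fun h => Finset.ne_of_mem_erase hχ (eq_triv_iff.2 h)) hA (by omega) hnn (hx χ) (hm χ)
  refine arith (B.erase (triv G)) (fun χ => x χ) (fun χ => m χ) q k (by exact_mod_cast hq)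
    (fun χ _ => by exact_mod_cast hx0 χ) (fun χ hχ => by exact_mod_cast (hb χ hχ).1)
    (fun χ hχ => (hb χ hχ).2) ?_ ?_ ?_
  · apply Complex.ofReal_injective
    push_cast
    linear_combination s1
  · apply Complex.ofReal_injective
    push_cast
    linear_combination s2
  · apply Complex.ofReal_injective
    push_cast
    linear_combination s3

variable {p : ℕ} [hp : Fact p.Prime]

theorem simple_case {G : Type*} [Group G] [Finite G] [IsSimpleGroup G] (H : Hyp p G)
    (hC : ∀ K : Subgroup G, K ≠ ⊤ → IsPSolvable p K) : IsPSolvable p G := by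
  classical
  by_contra hG
  have hnab : ∀ w : G, w ≠ 1 → centralizer ({w} : Set G) ≠ ⊤ := by
    intro w hw h
    have h1 : w ∈ center G := mem_center_iff.2 fun g =>
      mem_centralizer_singleton_iff.1 (h ▸ mem_top g : g ∈ centralizer ({w} : Set G))
    rcases (inferInstance : (center G).Normal).eq_bot_or_eq_top with h2 | h2
    · exact hw (by rwa [h2, mem_bot] at h1)
    · haveI : Group.IsSolvable G := Group.isSolvable_of_comm fun a b =>
        (mem_center_iff.1 (h2 ▸ mem_top b : b ∈ center G) a)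
      exact hG (IsPSolvable.of_isSolvable p G)
  obtain ⟨P₀⟩ : Nonempty (Sylow p G) := inferInstance
  have hP : (P₀ : Subgroup G) ≠ ⊥ := by
    intro h
    refine hG (IsPSolvable.of_coprime ?_)
    have := P₀.not_dvd_index
    rw [h, index_bot] at this
    exact ((Nat.Prime.coprime_iff_not_dvd hp.out).2 this).symm
  haveI : Nontrivial (P₀ : Subgroup G) := (nontrivial_iff_ne_bot _).2 hP
  haveI := P₀.isPGroup'.center_nontrivial
  obtain ⟨⟨⟨z, hz0⟩, hzc⟩, hz1⟩ := exists_ne (1 : center (P₀ : Subgroup G))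
  have hz1' : z ≠ 1 := fun h => hz1 (Subtype.ext (Subtype.ext h))
  have hz : ∀ t ∈ (P₀ : Subgroup G), t * z = z * t := fun t ht =>
    congrArg Subtype.val (mem_center_iff.1 hzc ⟨t, ht⟩)
  have hzA : z ∈ wc z P₀ := mem_wc (IsConj.refl z) hz0
  have hAp : IsPGroup p (wc z P₀) := P₀.isPGroup'.to_le (wc_le z P₀)
  have hnn : ¬ (wc z P₀).Normal := by
    intro hn
    rcases hn.eq_bot_or_eq_top with h | h
    · exact hz1' (by rwa [h, mem_bot] at hzA)
    · rw [h] at hAp
      exact hG (IsPSolvable.of_isPGroup (hAp.of_equiv topEquiv))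
  by_cases hq : 3 ≤ Nat.card (wc z P₀)
  · haveI := Fintype.ofFinite G
    haveI := Fintype.ofFinite (wc z P₀)
    obtain ⟨M, hM⟩ := exists_isPModular hp.out
    choose π hπ1 hπ2 using exists_pi H hz0 hz fun w hw => hC _ (hnab w hw)
    refine char_main (π := π) (irrFin (principalBlock M G))
      (mem_irrFin.2 (triv_mem_principalBlock hM))
      (fun a b => Subtype.ext (wc_comm H hz0 hz a.2 b.2)) hq hnn ?_ ?_
    · intro χ hχ g u a ha
      obtain ⟨v, hv, hcj⟩ := hπ2 g u a ha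
      rw [χ.2.isClassFunction.eq_of_isConj hcj]
      exact Cfsg.Agent.S0942.result p M hM _ (pow_of_mem hAp (a * π g u).2) v hv χ
        (mem_irrFin.1 hχ)
    · intro g u w hw
      rw [← finsum_mem_irr]
      refine block_orth_regular hM Princ.isPBlock_principalBlock (hπ1 g u) ?_
      by_contra h
      exact hw (Subtype.ext (eq_one_of_orders (pow_of_mem hAp w.2) h))
  · have hq2 : Nat.card (wc z P₀) = 2 := by
      haveI : Nontrivial (wc z P₀) := ⟨⟨⟨z, hzA⟩, 1, fun h => hz1' (congrArg Subtype.val h)⟩⟩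
      have := Finite.one_lt_card (α := wc z P₀)
      omega
    have hp2 : p = 2 := by
      obtain ⟨k, hk⟩ := IsPGroup.iff_card.1 hAp
      rw [hq2] at hk
      exact ((Nat.Prime.pow_eq_iff Nat.prime_two).1 hk.symm).1
    subst hp2
    have hoz : orderOf z = 2 := by
      have := Subgroup.orderOf_dvd_natCard _ hzA
      rw [hq2] at this
      exact ((Nat.dvd_prime Nat.prime_two).1 this).resolve_left
        (fun h => hz1' (orderOf_eq_one_iff.1 h))
    obtain ⟨y, -, hy⟩ := (Nat.card_eq_two_iff' (1 : wc z P₀)).1 hq2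
    obtain ⟨N, hN, hodd, hcomm⟩ := Cfsg.Agent.S0215.result P₀ z hoz hz0 (fun g hg => by
      have h1 : g * z * g⁻¹ ∈ wc z P₀ := mem_wc (isConj_iff.2 ⟨g, rfl⟩) hg
      have h2 := hy ⟨_, h1⟩ fun h => hz1' (by simpa using congrArg Subtype.val h)
      have h3 := hy ⟨_, hzA⟩ fun h => hz1' (congrArg Subtype.val h)
      exact congrArg Subtype.val (h2.trans h3.symm))
    rcases hN.eq_bot_or_eq_top with h | h
    · refine hnab z hz1' (eq_top_iff.2 fun g _ => mem_centralizer_singleton_iff.2 ?_)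
      have := hcomm g
      rw [h, mem_bot, mul_inv_eq_one, mul_inv_eq_iff_eq_mul] at this
      exact this.symm
    · rw [h, card_top] at hodd
      exact hG (IsPSolvable.of_coprime (Nat.coprime_two_right.2 hodd))

theorem Hyp.subgroup {G : Type*} [Group G] [Finite G] (H : Hyp p G) (K : Subgroup G) :
    Hyp p K := by
  intro P Q
  obtain ⟨P', hP⟩ := (P.isPGroup'.map K.subtype).exists_le_sylow
  obtain ⟨Q', hQ⟩ := (Q.isPGroup'.map K.subtype).exists_le_sylow
  have h1 : ((P : Subgroup K) ⊔ (Q : Subgroup K)).map K.subtype ≤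
      (P' : Subgroup G) ⊔ (Q' : Subgroup G) := by
    rw [Subgroup.map_sup]; exact sup_le_sup hP hQ
  exact ((H P' Q').of_le h1).of_equiv (equivMapOfInjective _ _ K.subtype_injective).symm

theorem Hyp.quotient {G : Type*} [Group G] [Finite G] (H : Hyp p G) (N : Subgroup G) [N.Normal] :
    Hyp p (G ⧸ N) := by
  intro P Q
  obtain ⟨P', rfl⟩ := Sylow.mapSurjective_surjective (QuotientGroup.mk'_surjective N) p P
  obtain ⟨Q', rfl⟩ := Sylow.mapSurjective_surjective (QuotientGroup.mk'_surjective N) p Q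
  have := (H P' Q').map (QuotientGroup.mk' N)
  rwa [Subgroup.map_sup] at this

theorem isPSolvable_of_hyp (n : ℕ) :
    ∀ (G : Type u) [Group G] [Finite G], Nat.card G = n → Hyp p G → IsPSolvable p G := by
  induction n using Nat.strong_induction_on with
  | _ n ih =>
    intro G _ _ hn H
    have hC : ∀ K : Subgroup G, K ≠ ⊤ → IsPSolvable p K := fun K hK =>
      ih _ (hn ▸ lt_of_le_of_ne (card_le_card_group K) fun h => hK (eq_top_of_card_eq K h)) K rfl
        (H.subgroup K)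
    rcases subsingleton_or_nontrivial G with h | h
    · exact IsPSolvable.of_subsingleton
    by_cases hs : ∀ N : Subgroup G, N.Normal → N = ⊥ ∨ N = ⊤
    · haveI : IsSimpleGroup G := ⟨hs⟩
      exact simple_case H hC
    · push Not at hs
      obtain ⟨N, hN, h1, h2⟩ := hs
      refine IsPSolvable.extension N (hC N h2) (ih _ ?_ (G ⧸ N) rfl (H.quotient N))
      rw [← hn, card_eq_card_quotient_mul_card_subgroup N]
      haveI : Nontrivial N := (nontrivial_iff_ne_bot _).2 h1
      exact lt_mul_of_one_lt_right Nat.card_pos Finite.one_lt_card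

end Cfsg.Lib.PairSyl
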